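import Mathlib
import Cfsg.Agent.Lib.Helper9.S4033.Defs

/-!
# Project S4033: package [B]
-/

set_option autoImplicit false

namespace Cfsg.Agent.Lib.Helper45.S4033

open Cfsg.Agent.Lib.Helper9.S4033

universe u

theorem pkgB : PkgB.{u} := by
  intro G _ _ p q hp hq hqp hcen
  classical
  have hpF : Fact p.Prime := ⟨hp⟩
  have hqF : Fact q.Prime := ⟨hq⟩
  obtain ⟨A, hA⟩ : ∃ A : Subgroup G, ∀ z, z ∈ A ↔
      z ∈ Subgroup.center G ∧ (orderOf z).Coprime (p * q) :=
    ⟨{ carrier := {z | z ∈ Subgroup.center G ∧ (orderOf z).Coprime (p * q)}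
       mul_mem' := by
         intro x y hx hy
         refine ⟨(Subgroup.center G).mul_mem hx.1 hy.1, ?_⟩
         have hcomm : Commute x y := (Subgroup.mem_center_iff.1 hx.1 y).symm
         exact Nat.Coprime.coprime_dvd_left
           (hcomm.orderOf_mul_dvd_lcm.trans (Nat.lcm_dvd_mul _ _)) (Nat.Coprime.mul_left hx.2 hy.2)
       one_mem' := ⟨(Subgroup.center G).one_mem, by
         rw [orderOf_one]
         exact Nat.coprime_one_left _⟩
       inv_mem' := by
         intro x hx
         exact ⟨(Subgroup.center G).inv_mem hx.1, by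
           rw [orderOf_inv]
           exact hx.2⟩ }, fun z => Iff.rfl⟩
  have hAcen : A ≤ Subgroup.center G := fun z hz => ((hA z).1 hz).1
  have hAnorm : A.Normal := by
    constructor
    intro n hn g
    have h1 := hAcen hn
    rw [Subgroup.mem_center_iff] at h1
    rw [h1 g, mul_inv_cancel_right]
    exact hn
  have hnd : ∀ r : ℕ, r.Prime → r ∣ p * q → ¬ r ∣ Nat.card A := by
    intro r hr hrpq hrA
    have hrF : Fact r.Prime := ⟨hr⟩
    obtain ⟨x, hx⟩ := exists_prime_orderOf_dvd_card' r hrA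
    have hx' : orderOf (x : G) = r := by
      rw [Subgroup.orderOf_coe]
      exact hx
    have h1 := ((hA x).1 x.2).2
    rw [hx'] at h1
    exact hr.one_lt.ne' (Nat.Coprime.eq_one_of_dvd h1 hrpq)
  have hidx : ∀ r : ℕ, r.Prime → r ≠ p → r ≠ q → ¬ r ∣ A.index := by
    intro r hr hrp hrq hdvd
    have hrF : Fact r.Prime := ⟨hr⟩
    obtain ⟨R⟩ : Nonempty (Sylow r G) := inferInstance
    have hRA : (R : Subgroup G) ≤ A := by
      intro x hx
      obtain ⟨k, hk⟩ := (IsPGroup.iff_orderOf.1 R.2) ⟨x, hx⟩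
      have hk' : orderOf x = r ^ k := by
        rw [← hk]
        exact Subgroup.orderOf_coe (⟨x, hx⟩ : (R : Subgroup G))
      rw [hA]
      refine ⟨hcen x r hr hrp hrq ⟨k, hk'⟩, ?_⟩
      rw [hk']
      apply Nat.Coprime.pow_left
      exact Nat.Coprime.mul_right ((Nat.coprime_primes hr hp).2 hrp)
        ((Nat.coprime_primes hr hq).2 hrq)
    exact R.not_dvd_index (hdvd.trans (Subgroup.index_dvd_of_le hRA))
  have hcopA : (Nat.card A).Coprime A.index := by
    apply Nat.coprime_of_dvd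
    intro r hr hrA hrI
    by_cases hrp : r = p
    · exact hnd r hr (hrp ▸ Dvd.intro _ rfl) hrA
    · by_cases hrq : r = q
      · exact hnd r hr (hrq ▸ Dvd.intro_left _ rfl) hrA
      · exact hidx r hr hrp hrq hrI
  obtain ⟨H, hH⟩ := Subgroup.exists_right_complement'_of_coprime hcopA
  have hcard : Nat.card A * Nat.card H = Nat.card G := hH.card_mul_card
  have hHidx : A.index = Nat.card H := hH.symm.index_eq_card
  have hsup : A ⊔ H = ⊤ := hH.sup_eq_top
  have hdisj : A ⊓ H = ⊥ := hH.disjoint.eq_bot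
  have hHnorm : H.Normal := by
    constructor
    intro h hh g
    have hg : g ∈ A ⊔ H := by
      rw [hsup]
      exact Subgroup.mem_top g
    rw [← SetLike.mem_coe, Subgroup.normal_mul] at hg
    obtain ⟨a, ha, h', hh', rfl⟩ := Set.mem_mul.1 hg
    have hac := hAcen ha
    rw [Subgroup.mem_center_iff] at hac
    have h2 : a * h' * h * (a * h')⁻¹ = h' * h * h'⁻¹ := by
      rw [mul_inv_rev]
      calc a * h' * h * (h'⁻¹ * a⁻¹) = a * (h' * h * h'⁻¹) * a⁻¹ := by group
        _ = (h' * h * h'⁻¹) * a * a⁻¹ := by rw [← hac (h' * h * h'⁻¹)]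
        _ = h' * h * h'⁻¹ := by group
    rw [h2]
    exact H.mul_mem (H.mul_mem hh' hh) (H.inv_mem hh')
  have hSyl : ∀ r : ℕ, r.Prime → ¬ r ∣ Nat.card A → ∃ R : Sylow r G, (R : Subgroup G) ≤ H := by
    intro r hr hrA
    have hrF : Fact r.Prime := ⟨hr⟩
    obtain ⟨R₀⟩ : Nonempty (Sylow r ↥H) := inferInstance
    have hc0 : Nat.card ((R₀ : Subgroup H).map H.subtype) = r ^ (Nat.card G).factorization r := by
      rw [Subgroup.card_map_of_injective H.subtype_injective, Sylow.card_eq_multiplicity, ← hcard,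
        Nat.factorization_mul Nat.card_pos.ne' Nat.card_pos.ne', Finsupp.add_apply,
        Nat.factorization_eq_zero_of_not_dvd hrA, zero_add]
    refine ⟨Sylow.ofCard _ hc0, ?_⟩
    rw [Sylow.coe_ofCard]
    exact Subgroup.map_subtype_le _
  obtain ⟨P, hPH⟩ := hSyl p hp (hnd p hp (Dvd.intro _ rfl))
  obtain ⟨Q, hQH⟩ := hSyl q hq (hnd q hq (Dvd.intro_left _ rfl))
  have hKH : (P : Subgroup G) ⊔ (Q : Subgroup G) ≤ H := sup_le hPH hQH
  have hPc : Nat.card P = p ^ (Nat.card G).factorization p := Sylow.card_eq_multiplicity P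
  have hQc : Nat.card Q = q ^ (Nat.card G).factorization q := Sylow.card_eq_multiplicity Q
  have hcopPQ : (Nat.card P).Coprime (Nat.card Q) := by
    rw [hPc, hQc]
    exact Nat.Coprime.pow _ _ ((Nat.coprime_primes hp hq).2 (Ne.symm hqp))
  have hd1 : Nat.card P * Nat.card Q ∣ Nat.card ↥((P : Subgroup G) ⊔ (Q : Subgroup G)) :=
    Nat.Coprime.mul_dvd_of_dvd_of_dvd hcopPQ (Subgroup.card_dvd_of_le le_sup_left)
      (Subgroup.card_dvd_of_le le_sup_right)
  have hd2 : Nat.card ↥((P : Subgroup G) ⊔ (Q : Subgroup G)) ∣ Nat.card H :=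
    Subgroup.card_dvd_of_le hKH
  have hHG : Nat.card H ∣ Nat.card G := Dvd.intro_left _ hcard
  have hd3 : Nat.card H ∣ Nat.card P * Nat.card Q := by
    obtain ⟨c, hc⟩ := hd1.trans hd2
    have hc1 : c = 1 := by
      rw [Nat.eq_one_iff_not_exists_prime_dvd]
      intro r hr hrc
      obtain ⟨c', hc'⟩ := hrc
      by_cases hrp : r = p
      · have h3 : p ^ ((Nat.card G).factorization p + 1) ∣ Nat.card H :=
          ⟨Nat.card Q * c', by rw [hc, hc', pow_succ, ← hPc, hrp]; ring⟩
        exact Nat.pow_succ_factorization_not_dvd Nat.card_pos.ne' hp (h3.trans hHG)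
      · by_cases hrq : r = q
        · have h3 : q ^ ((Nat.card G).factorization q + 1) ∣ Nat.card H :=
            ⟨Nat.card P * c', by rw [hc, hc', pow_succ, ← hQc, hrq]; ring⟩
          exact Nat.pow_succ_factorization_not_dvd Nat.card_pos.ne' hq (h3.trans hHG)
        · apply hidx r hr hrp hrq
          rw [hHidx, hc, hc']
          exact ⟨Nat.card P * Nat.card Q * c', by ring⟩
    rw [hc, hc1, mul_one]
  have hcardK : Nat.card ↥((P : Subgroup G) ⊔ (Q : Subgroup G)) = Nat.card P * Nat.card Q :=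
    Nat.dvd_antisymm (hd2.trans hd3) hd1
  have hKeq : (P : Subgroup G) ⊔ (Q : Subgroup G) = H := by
    apply Subgroup.eq_of_le_of_card_ge hKH
    rw [hcardK]
    exact Nat.le_of_dvd (Nat.mul_pos Nat.card_pos Nat.card_pos) hd3
  refine ⟨P, Q, A, hAcen, hcardK, ?_, ?_, ?_⟩
  · rw [hKeq]
    exact hHnorm
  · rw [hKeq, inf_comm]
    exact hdisj
  · rw [hKeq, sup_comm]
    exact hsup

end Cfsg.Agent.Lib.Helper45.S4033
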