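import Mathlib
import Cfsg.Agent.Lib.Helper9.S4033.Defs

/-!
# Project S4033: package [F2a]
-/

set_option autoImplicit false

namespace Cfsg.Agent.Lib.Helper45.S4033

open Cfsg.Agent.Lib.Helper9.S4033

universe u

theorem s4033_card_mul_relIndex {G : Type u} [Group G] (A B : Subgroup G) (hAB : A ≤ B) :
    Nat.card A * A.relIndex B = Nat.card B := by
  have h := Subgroup.relIndex_mul_relIndex ⊥ A B bot_le hAB
  rw [Subgroup.relIndex_bot_left, Subgroup.relIndex_bot_left] at h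
  exact h

/-- the conjugation action of `S` on `T \ ZT` -/
@[instance_reducible]
def s4033Action {G : Type u} [Group G] (S T ZT : Subgroup G)
    (hn : ∀ b ∈ S, ∀ y ∈ T, b * y * b⁻¹ ∈ T)
    (hz : ∀ b ∈ S, ∀ y ∈ T, b * y * b⁻¹ ∈ ZT → y ∈ ZT) :
    MulAction ↥S ↥((T : Set G) \ (ZT : Set G)) where
  smul b y := ⟨(b : G) * (y : G) * (b : G)⁻¹, hn b b.2 y y.2.1,
    fun h => y.2.2 (hz b b.2 y y.2.1 h)⟩
  one_smul y := Subtype.ext (by
    show ((1 : S) : G) * (y : G) * ((1 : S) : G)⁻¹ = y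
    simp)
  mul_smul a b y := Subtype.ext (by
    show ((a * b : S) : G) * (y : G) * ((a * b : S) : G)⁻¹ =
      (a : G) * ((b : G) * (y : G) * (b : G)⁻¹) * (a : G)⁻¹
    simp [mul_assoc])

theorem pkgF2a : PkgF2a.{u} := by
  intro G _ _ s t hs ht hst S ZS T ZT hS hT hZS hZT hne hn hz hstab hcent
  classical
  have hsF : Fact s.Prime := ⟨hs⟩
  have htF : Fact t.Prime := ⟨ht⟩
  let _ := s4033Action S T ZT hn hz
  have hsmul : ∀ (b : S) (y : ↥((T : Set G) \ (ZT : Set G))),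
      ((b • y : ↥((T : Set G) \ (ZT : Set G))) : G) = (b : G) * (y : G) * (b : G)⁻¹ :=
    fun _ _ => rfl
  have hstabEq : ∀ y : ↥((T : Set G) \ (ZT : Set G)),
      MulAction.stabilizer ↥S y = ZS.subgroupOf S := by
    intro y
    ext b
    rw [MulAction.mem_stabilizer_iff, Subgroup.mem_subgroupOf]
    constructor
    · intro h
      have h1 : (b : G) * (y : G) * (b : G)⁻¹ = y := by
        rw [← hsmul, h]
      exact hstab b b.2 y y.2.1 y.2.2 (mul_inv_eq_iff_eq_mul.1 h1)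
    · intro h
      apply Subtype.ext
      rw [hsmul, hcent b h y y.2.1, mul_inv_cancel_right]
  have hfinQ : Fintype (Quotient (MulAction.orbitRel ↥S ↥((T : Set G) \ (ZT : Set G)))) :=
    Fintype.ofFinite _
  have hX : Nat.card ↥((T : Set G) \ (ZT : Set G)) =
      Nat.card (Quotient (MulAction.orbitRel ↥S ↥((T : Set G) \ (ZT : Set G)))) *
        ZS.relIndex S := by
    rw [Nat.card_congr (MulAction.selfEquivSigmaOrbitsQuotientStabilizer ↥S
      ↥((T : Set G) \ (ZT : Set G))), Nat.card_sigma]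
    rw [Finset.sum_congr rfl (fun ω _ => by
      show Nat.card (↥S ⧸ MulAction.stabilizer ↥S ω.out) = ZS.relIndex S
      rw [hstabEq ω.out]
      rfl)]
    rw [Finset.sum_const, Finset.card_univ, smul_eq_mul, Nat.card_eq_fintype_card]
  have hT1 : Nat.card ↥T = (T : Set G).ncard := (Nat.card_coe_set_eq (T : Set G)).symm
  have hZT1 : Nat.card ↥ZT = (ZT : Set G).ncard := (Nat.card_coe_set_eq (ZT : Set G)).symm
  have hXcard : Nat.card ↥((T : Set G) \ (ZT : Set G)) = Nat.card T - Nat.card ZT := by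
    rw [Nat.card_coe_set_eq, Set.ncard_sdiff (fun x hx => hZT hx) (Set.toFinite _), hT1, hZT1]
  obtain ⟨a, ha⟩ := IsPGroup.iff_card.1 hS
  obtain ⟨b, hb⟩ := IsPGroup.iff_card.1 hT
  have hk : Nat.card ZS * ZS.relIndex S = Nat.card S := s4033_card_mul_relIndex ZS S hZS
  have hwT : Nat.card ZT ∣ Nat.card T := Subgroup.card_dvd_of_le hZT
  have hlt : Nat.card ZT < Nat.card T := by
    by_contra hge
    push Not at hge
    exact hne (Subgroup.eq_of_le_of_card_ge hZT hge)
  have hkdvd : ZS.relIndex S ∣ Nat.card T - Nat.card ZT := ⟨_, by rw [← hXcard, hX, mul_comm]⟩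
  have hkS : ZS.relIndex S ∣ s ^ a := by
    rw [← ha, ← hk]
    exact Dvd.intro_left _ rfl
  have hwT' : Nat.card ZT ∣ t ^ b := by
    rw [← hb]
    exact hwT
  obtain ⟨c, hc⟩ := hwT
  obtain ⟨b', hb'le, hb'⟩ := (Nat.dvd_prime_pow ht).1 hwT'
  obtain ⟨a', ha'le, ha'⟩ := (Nat.dvd_prime_pow hs).1 hkS
  have hcop : Nat.Coprime (ZS.relIndex S) (Nat.card ZT) := by
    rw [ha', hb']
    exact Nat.Coprime.pow _ _ ((Nat.coprime_primes hs ht).2 hst)
  have hzpos : 0 < Nat.card ZT := Nat.card_pos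
  have hZSpos : 0 < Nat.card ZS := Nat.card_pos
  have hc2 : 2 ≤ c := by
    by_contra hc2
    push Not at hc2
    have : c ≤ 1 := by omega
    have h8 : Nat.card ZT * c ≤ Nat.card ZT * 1 := Nat.mul_le_mul_left _ this
    omega
  have h5 : Nat.card T - Nat.card ZT = Nat.card ZT * (c - 1) := by
    rw [hc, Nat.mul_sub, mul_one]
  rw [h5] at hkdvd
  have h6 : ZS.relIndex S ∣ c - 1 := hcop.dvd_of_dvd_mul_left hkdvd
  have h7 : ZS.relIndex S ≤ c - 1 := Nat.le_of_dvd (by omega) h6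
  have h9 : ZS.relIndex S < c := by omega
  rw [← hk, hc]
  calc Nat.card ZS * ZS.relIndex S * Nat.card ZT
      = (Nat.card ZS * Nat.card ZT) * ZS.relIndex S := by ring
    _ < (Nat.card ZS * Nat.card ZT) * c :=
        Nat.mul_lt_mul_of_pos_left h9 (Nat.mul_pos hZSpos hzpos)
    _ = Nat.card ZT * c * Nat.card ZS := by ring

end Cfsg.Agent.Lib.Helper45.S4033
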