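import Mathlib
import Cfsg.Agent.Lib.Helper9.S4033.Defs

/-!
# Project S4033: package [PRIM]
-/

set_option autoImplicit false

namespace Cfsg.Agent.Lib.Helper45.S4033

open Cfsg.Agent.Lib.Helper9.S4033

universe u

theorem s4033_mem_of_coprime_pow {G : Type u} [Group G] (H : Subgroup G) (g : G) (a b : ℕ)
    (hab : a.Coprime b) (ha : g ^ a ∈ H) (hb : g ^ b ∈ H) : g ∈ H := by
  have e : (a : ℤ) * a.gcdA b + (b : ℤ) * a.gcdB b = 1 := by
    rw [← Nat.gcd_eq_gcd_ab, hab.gcd_eq_one]
    rfl
  have hg : g = (g ^ a) ^ (a.gcdA b) * (g ^ b) ^ (a.gcdB b) := by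
    rw [← zpow_natCast g a, ← zpow_natCast g b, ← zpow_mul, ← zpow_mul, ← zpow_add, e, zpow_one]
  rw [hg]
  exact H.mul_mem (H.zpow_mem ha _) (H.zpow_mem hb _)

theorem pkgPrim : PkgPrim.{u} := by
  intro G _ H h hfin hyp
  have key : ∀ N : ℕ, ∀ i : ℕ, orderOf (h ^ i) = N → h ^ i ∈ H := by
    intro N
    induction N using Nat.strong_induction_on with
    | _ N ih =>
      intro i hi
      have hfin' : IsOfFinOrder (h ^ i) := hfin.pow
      have hNpos : 0 < N := by
        rw [← hi]
        exact hfin'.orderOf_pos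
      by_cases hN1 : N = 1
      · rw [hN1, orderOf_eq_one_iff] at hi
        rw [hi]
        exact H.one_mem
      · obtain ⟨r, hr, hrN⟩ := Nat.exists_prime_and_dvd hN1
        obtain ⟨k, m, hrm, hNkm⟩ := Nat.exists_eq_pow_mul_and_not_dvd hNpos.ne' r hr.ne_one
        by_cases hm1 : m = 1
        · exact hyp r i hr ⟨k, by rw [hi, hNkm, hm1, mul_one]⟩
        · have hk : k ≠ 0 := by
            rintro rfl
            rw [pow_zero, one_mul] at hNkm
            rw [hNkm] at hrN
            exact hrm hrN
          have hcop : Nat.Coprime (r ^ k) m :=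
            Nat.Coprime.pow_left k ((Nat.Prime.coprime_iff_not_dvd hr).2 hrm)
          have hmpos : 0 < m := by
            rcases Nat.eq_zero_or_pos m with h0 | h0
            · rw [h0, mul_zero] at hNkm
              omega
            · exact h0
          have hrk1 : 1 < r ^ k := Nat.one_lt_pow hk hr.one_lt
          have hm1' : 1 < m := by omega
          have hrkpos : 0 < r ^ k := by omega
          have ho1 : orderOf ((h ^ i) ^ (r ^ k)) = m := by
            rw [orderOf_pow' _ hrkpos.ne', hi, hNkm, Nat.gcd_eq_right (Dvd.intro _ rfl),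
              Nat.mul_div_cancel_left m hrkpos]
          have ho2 : orderOf ((h ^ i) ^ m) = r ^ k := by
            rw [orderOf_pow' _ hmpos.ne', hi, hNkm, Nat.gcd_eq_right (Dvd.intro_left _ rfl)]
            exact Nat.mul_div_cancel (r ^ k) hmpos
          have hlt1 : m < N := by
            rw [hNkm]
            nlinarith
          have hlt2 : r ^ k < N := by
            rw [hNkm]
            nlinarith
          have h1 : (h ^ i) ^ (r ^ k) ∈ H := by
            rw [← pow_mul]
            exact ih m hlt1 (i * r ^ k) (by rw [pow_mul]; exact ho1)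
          have h2 : (h ^ i) ^ m ∈ H := by
            rw [← pow_mul]
            exact ih (r ^ k) hlt2 (i * m) (by rw [pow_mul]; exact ho2)
          exact s4033_mem_of_coprime_pow H (h ^ i) (r ^ k) m hcop h1 h2
  have := key _ 1 rfl
  rwa [pow_one] at this

end Cfsg.Agent.Lib.Helper45.S4033
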